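import Cfsg.Agent.H134.Sq.Base
import Cfsg.Agent.H459.Ore.Frame
import Cfsg.Agent.NotCT.Orders

/-!
# S2453: assembly frame

`Row S` : the conclusion of S2453 for `k, l ≥ 2` not coprime.  `SqRows` : what is needed from the
sporadic groups (squares for the 15 groups of order `≥ 2 ^ 32`, cubes for the Monster);
`SqRows.rows : SporRows Row`; `final` : the statement from `Row S`.
-/

set_option autoImplicit false

namespace Cfsg.Agent.H134.War

open Cfsg.Agent.H459.Ore Cfsg.Agent.NotCT

universe u

/-- the row of S2453 -/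
def Row (S : Type u) [Group S] : Prop :=
  ∀ k l : ℕ, 2 ≤ k → 2 ≤ l → ¬ k.Coprime l → (max k l) ^ (8 * (max k l) ^ 2) ≤ Nat.card S →
    KL S k l

/-- the statement of S2453 from the row -/
theorem final {S : Type u} [Group S] [Finite S] (h : Row S) (k l : ℕ) (hk : 1 ≤ k) (hl : 1 ≤ l)
    (hbig : (max k l) ^ (8 * (max k l) ^ 2) ≤ Nat.card S) (g : S) :
    ∃ x y : S, g = x ^ k * y ^ l := by
  by_cases hc : k.Coprime l
  · exact war_of_coprime hc g
  · have hk1 : k ≠ 1 := by rintro rfl; exact hc (Nat.coprime_one_left l)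
    have hl1 : l ≠ 1 := by rintro rfl; exact hc (Nat.coprime_one_right k)
    exact h k l (by omega) (by omega) hc hbig g

theorem Row.congr {S T : Type u} [Group S] [Group T] (e : S ≃* T) (h : Row S) : Row T := by
  intro k l hk hl hc hbig
  rw [← Nat.card_congr e.toEquiv] at hbig
  exact (h k l hk hl hc hbig).congr e

/-- the alternating groups -/
theorem row_alt {S : Type u} [Group S] (h : IsAlternating S) : Row S := by
  obtain ⟨n, hn, ⟨e⟩⟩ := h
  intro k l hk hl hc hbig
  rw [Nat.card_congr e.toEquiv] at hbig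
  exact (war_alt n k l (by omega) (by omega) hbig).congr e.symm

theorem pow_mono {a b : ℕ} (ha : 1 ≤ a) (h : a ≤ b) : a ^ (8 * a ^ 2) ≤ b ^ (8 * b ^ 2) := by
  calc a ^ (8 * a ^ 2) ≤ b ^ (8 * a ^ 2) := Nat.pow_le_pow_left h _
    _ ≤ b ^ (8 * b ^ 2) := Nat.pow_le_pow_right (by omega)
        (Nat.mul_le_mul_left 8 (Nat.pow_le_pow_left h 2))

/-- order less than `m ^ (8 m ^ 2)`: the exponents are less than `m` -/
theorem max_lt {S : Type u} [Group S] {N m k l : ℕ} (hN : Nat.card S = N)
    (hb : (max k l) ^ (8 * (max k l) ^ 2) ≤ Nat.card S) (hm : 1 ≤ m) (h : N < m ^ (8 * m ^ 2)) :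
    k < m ∧ l < m := by
  have : max k l < m := by
    by_contra hc
    push Not at hc
    have := pow_mono hm hc
    omega
  omega

theorem row_of_small {S : Type u} [Group S] {N : ℕ} (hN : Nat.card S = N) (h : N < 4294967296) :
    Row S := by
  intro k l hk hl hc hbig
  have h2 : (2 : ℕ) ^ (8 * 2 ^ 2) = 4294967296 := by norm_num
  have := max_lt (m := 2) hN hbig (by norm_num) (by rw [h2]; exact h)
  omega

theorem row_of_sq {S : Type u} [Group S] {N : ℕ} (hN : Nat.card S = N)
    (h : N < 22528399544939174411840147874772641) (hsq : Sq.AllP 2 S) : Row S := by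
  intro k l hk hl hc hbig
  have h3 : (3 : ℕ) ^ (8 * 3 ^ 2) = 22528399544939174411840147874772641 := by norm_num
  have := max_lt (m := 3) hN hbig (by norm_num) (by rw [h3]; exact h)
  obtain rfl : k = 2 := by omega
  obtain rfl : l = 2 := by omega
  exact hsq

theorem row_of_cube {S : Type u} [Group S] {N : ℕ} (hN : Nat.card S = N)
    (h : N < 4 ^ 128) (hsq : Sq.AllP 2 S) (hcb : Sq.AllP 3 S) : Row S := by
  intro k l hk hl hc hbig
  have := max_lt (m := 4) hN hbig (by norm_num) (by
    have : (8 * 4 ^ 2 : ℕ) = 128 := by norm_num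
    rw [this]; exact h)
  obtain ⟨h1, h2⟩ := this
  have hk' : k = 2 ∨ k = 3 := by omega
  have hl' : l = 2 ∨ l = 3 := by omega
  rcases hk' with rfl | rfl <;> rcases hl' with rfl | rfl
  · exact hsq
  · exact absurd (by decide) hc
  · exact absurd (by decide) hc
  · exact hcb

/-- The sporadic input: squares (products of two squares), and cubes for the Monster. -/
structure SqRows : Prop where
  j4 : ∀ {G : Type u} [Group G], Spor.IsoJ4 G → Sq.AllP 2 G
  co1 : ∀ {G : Type u} [Group G], Spor.IsoCo1 G → Sq.AllP 2 G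
  co2 : ∀ {G : Type u} [Group G], Spor.IsoCo2 G → Sq.AllP 2 G
  co3 : ∀ {G : Type u} [Group G], Spor.IsoCo3 G → Sq.AllP 2 G
  suz : ∀ {G : Type u} [Group G], Spor.IsoSuz G → Sq.AllP 2 G
  ru : ∀ {G : Type u} [Group G], Spor.IsoRu G → Sq.AllP 2 G
  oN : ∀ {G : Type u} [Group G], Spor.IsoON G → Sq.AllP 2 G
  ly : ∀ {G : Type u} [Group G], Spor.IsoLy G → Sq.AllP 2 G
  fi22 : ∀ {G : Type u} [Group G], Spor.IsoFi22 G → Sq.AllP 2 G
  fi23 : ∀ {G : Type u} [Group G], Spor.IsoFi23 G → Sq.AllP 2 G
  fi24 : ∀ {G : Type u} [Group G], Spor.IsoFi24' G → Sq.AllP 2 G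
  hN : ∀ {G : Type u} [Group G], Spor.IsoHN G → Sq.AllP 2 G
  th : ∀ {G : Type u} [Group G], Spor.IsoTh G → Sq.AllP 2 G
  b : ∀ {G : Type u} [Group G], Spor.IsoB G → Sq.AllP 2 G
  m : ∀ {G : Type u} [Group G], Spor.IsoM G → Sq.AllP 2 G
  m3 : ∀ {G : Type u} [Group G], Spor.IsoM G → Sq.AllP 3 G

set_option maxRecDepth 4000 in
theorem SqRows.rows (R : SqRows.{u}) : SporRows.{u} (fun G _ => Row G) where
  m11 := fun h => row_of_small (Orders.m11 h) (by decide +kernel)
  m12 := fun h => row_of_small (Orders.m12 h) (by decide +kernel)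
  m22 := fun h => row_of_small (Orders.m22 h) (by decide +kernel)
  m23 := fun h => row_of_small (Orders.m23 h) (by decide +kernel)
  m24 := fun h => row_of_small (Orders.m24 h) (by decide +kernel)
  j1 := fun h => row_of_small (Orders.j1 h) (by decide +kernel)
  j2 := fun h => row_of_small (Orders.j2 h) (by decide +kernel)
  j3 := fun h => row_of_small (Orders.j3 h) (by decide +kernel)
  mcL := fun h => row_of_small (Orders.mcl h) (by decide +kernel)
  hS := fun h => row_of_small (Orders.hs h) (by decide +kernel)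
  he := fun h => row_of_small (Orders.he h) (by decide +kernel)
  j4 := fun h => row_of_sq (Orders.j4 h) (by decide +kernel) (R.j4 h)
  co1 := fun h => row_of_sq (Orders.co1 h) (by decide +kernel) (R.co1 h)
  co2 := fun h => row_of_sq (Orders.co2 h) (by decide +kernel) (R.co2 h)
  co3 := fun h => row_of_sq (Orders.co3 h) (by decide +kernel) (R.co3 h)
  suz := fun h => row_of_sq (Orders.suz h) (by decide +kernel) (R.suz h)
  ru := fun h => row_of_sq (Orders.ru h) (by decide +kernel) (R.ru h)
  oN := fun h => row_of_sq (Orders.on h) (by decide +kernel) (R.oN h)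
  ly := fun h => row_of_sq (Orders.ly h) (by decide +kernel) (R.ly h)
  fi22 := fun h => row_of_sq (Orders.fi22 h) (by decide +kernel) (R.fi22 h)
  fi23 := fun h => row_of_sq (Orders.fi23 h) (by decide +kernel) (R.fi23 h)
  fi24 := fun h => row_of_sq (Orders.fi24 h) (by decide +kernel) (R.fi24 h)
  hN := fun h => row_of_sq (Orders.hn h) (by decide +kernel) (R.hN h)
  th := fun h => row_of_sq (Orders.th h) (by decide +kernel) (R.th h)
  b := fun h => row_of_sq (Orders.b h) (by decide +kernel) (R.b h)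
  m := fun h => row_of_cube (Orders.m h) (by decide +kernel) (R.m h) (R.m3 h)

end Cfsg.Agent.H134.War
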