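import Cfsg.Agent.H134.Sq.Base
import Cfsg.Agent.H535.Ore.ON

/-!
# S2453: products of two squares in the O'Nan group
-/

set_option autoImplicit false

namespace Cfsg.Agent.H134.War

open Cfsg.Agent.H535.Ore.ON Cfsg.Agent.H535.K4.ON

/-- every element of the O'Nan group is a product of two squares -/
theorem sq_on {S : Type*} [Group S] (h : Spor.IsoON S) : Sq.AllP 2 S := by
  obtain ⟨e⟩ := h
  refine Sq.AllP.congr e.symm ?_
  intro g
  by_cases hg : g = 1
  · rw [hg]; exact Sq.isP_one
  obtain ⟨x, -, hx, -⟩ := exists_inverted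
  exact Sq.isP_of_prd (prd_on hx hx hg) (by rw [hx]; decide) (by rw [hx]; decide)

end Cfsg.Agent.H134.War
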